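import Cfsg.Agent.H249.SpTwoExport

/-!
# Quadratic forms over `F_2` polarising to the symplectic form: a frame (helper397)

For row `Sp_2m(2)` of S3564: a quadratic form `Q` in dimension `2m ≥ 6` has hyperbolic pairs `e1, f1 ⟂ e2, f2` of
singular vectors and `v0` orthogonal to them with `Q v0 = 1`.
-/

set_option autoImplicit false
set_option linter.unusedSectionVars false

open Cfsg

namespace Cfsg.Agent.H397.KHomSp

open Cfsg.Agent.ClassicalGeometry.SympBasic
open Cfsg.Agent.ClassicalGeometry.SympSiegel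
open Cfsg.Agent.ClassicalGeometry.SympAutExists
open Cfsg.Agent.H249.SpTwo

universe w

section vec

variable {F : Type w} [Field F] [Fintype F] {m : ℕ}

local notation "V" => (Fin m ⊕ Fin m → F)
local notation "f" => sympForm m F

/-- less than `2m` vectors have a nonzero orthogonal vector -/
theorem exists_perp {c : ℕ} (hc : c < 2 * m) (x : Fin c → V) : ∃ v : V, v ≠ 0 ∧ ∀ i, f (x i) v = 0 := by
  let L : V →ₗ[F] (Fin c → F) := LinearMap.pi fun i => sympBilin m F (x i)
  have h1 : LinearMap.ker L ≠ ⊥ := by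
    apply LinearMap.ker_ne_bot_of_finrank_lt
    rw [Module.finrank_fintype_fun_eq_card, Module.finrank_fintype_fun_eq_card, Fintype.card_fin,
      Fintype.card_sum, Fintype.card_fin]
    omega
  obtain ⟨v, hv, hv0⟩ := Submodule.exists_mem_ne_zero_of_ne_bot h1
  refine ⟨v, hv0, fun i => ?_⟩
  have h2 := congrFun (LinearMap.mem_ker.1 hv) i
  exact h2

variable (hF : Fintype.card F = 2) (Q : (Fin m ⊕ Fin m → F) → F)
  (hQ : ∀ v w, Q (v + w) = Q v + Q w + sympForm m F v w)

include hQ in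
theorem Q_zero : Q 0 = 0 := by
  have h := hQ 0 0
  rw [add_zero, sympForm_zero_left, add_zero] at h
  exact left_eq_add.1 h

include hF hQ in
/-- a nonzero singular vector orthogonal to `c` vectors -/
theorem exists_sing {c : ℕ} (hc : c + 2 < 2 * m) (x : Fin c → V) :
    ∃ v : V, v ≠ 0 ∧ Q v = 0 ∧ ∀ i, f (x i) v = 0 := by
  obtain ⟨u, hu0, hu⟩ := exists_perp (m := m) (F := F) (by omega) x
  rcases F_cases hF (Q u) with h | h
  · exact ⟨u, hu0, h, hu⟩
  obtain ⟨y, hy⟩ : ∃ y, f y u ≠ 0 := by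
    by_contra hcon
    push Not at hcon
    exact hu0 (eq_zero_of_forall_sympForm_left hcon)
  obtain ⟨v, hv0, hv⟩ := exists_perp (m := m) (F := F) (c := c + 1 + 1) (by omega) (Fin.cons u (Fin.cons y x))
  have hv1 : f u v = 0 := hv 0
  have hv2 : f y v = 0 := hv 1
  have hv3 : ∀ i, f (x i) v = 0 := fun i => by
    have := hv i.succ.succ
    simpa using this
  rcases F_cases hF (Q v) with h' | h'
  · exact ⟨v, hv0, h', hv3⟩
  · refine ⟨u + v, ?_, ?_, ?_⟩
    · intro h0
      have : u = v := by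
        have h1 := congrArg (· + v) h0
        simp only [add_assoc, V_add_self hF, add_zero, zero_add] at h1
        exact h1
      rw [this] at hy
      exact hy hv2
    · rw [hQ, h, h', hv1, F_two hF, add_zero]
    · intro i
      rw [sympForm_add_right, hu, hv3, add_zero]

include hF hQ in
/-- the dual singular vector -/
theorem exists_dual {e : V} (he0 : e ≠ 0) (he : Q e = 0) : ∃ e' : V, Q e' = 0 ∧ f e e' = 1 := by
  obtain ⟨y, hy⟩ : ∃ y, f e y ≠ 0 := by
    by_contra hcon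
    push Not at hcon
    exact he0 (eq_zero_of_forall_sympForm_right hcon)
  have hy1 := f_eq_one hF hy
  rcases F_cases hF (Q y) with h | h
  · exact ⟨y, h, hy1⟩
  · refine ⟨y + e, ?_, ?_⟩
    · rw [hQ, h, he, f_symm hF, hy1, add_zero, F_two hF]
    · rw [sympForm_add_right, hy1, sympForm_self, add_zero]

/-- the frame: coefficients in `F_2` -/
structure Frame (Q : (Fin m ⊕ Fin m → F) → F) (b : Fin 5 → (Fin m ⊕ Fin m → F)) : Prop where
  q0 : Q (b 0) = 0
  q1 : Q (b 1) = 0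
  q2 : Q (b 2) = 0
  q3 : Q (b 3) = 0
  q4 : Q (b 4) = 1
  f01 : sympForm m F (b 0) (b 1) = 1
  f23 : sympForm m F (b 2) (b 3) = 1
  f02 : sympForm m F (b 0) (b 2) = 0
  f03 : sympForm m F (b 0) (b 3) = 0
  f12 : sympForm m F (b 1) (b 2) = 0
  f13 : sympForm m F (b 1) (b 3) = 0
  f04 : sympForm m F (b 0) (b 4) = 0
  f14 : sympForm m F (b 1) (b 4) = 0
  f24 : sympForm m F (b 2) (b 4) = 0
  f34 : sympForm m F (b 3) (b 4) = 0

include hF hQ in
theorem exists_frame (hm : 3 ≤ m) : ∃ b : Fin 5 → V, Frame Q b := by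
  -- the first pair
  obtain ⟨e1, he1, hq1, -⟩ := exists_sing hF Q hQ (c := 0) (by omega) (fun i => i.elim0)
  obtain ⟨f1, hqf1, hef1⟩ := exists_dual hF Q hQ he1 hq1
  have hfe1 : f f1 e1 = 1 := by rw [f_symm hF, hef1]
  -- the second pair
  obtain ⟨e2, he2, hq2, hp2⟩ := exists_sing hF Q hQ (c := 2) (by omega) ![e1, f1]
  have hp20 : f e1 e2 = 0 := hp2 0
  have hp21 : f f1 e2 = 0 := hp2 1
  obtain ⟨w, hw⟩ : ∃ y, f e2 y ≠ 0 := by
    by_contra hcon
    push Not at hcon
    exact he2 (eq_zero_of_forall_sympForm_right hcon)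
  have hw1 := f_eq_one hF hw
  obtain ⟨w', hw'1, hw'2, hw'3⟩ : ∃ w' : V, f e1 w' = 0 ∧ f f1 w' = 0 ∧ f e2 w' = 1 := by
    refine ⟨w + f f1 w • e1 + f e1 w • f1, ?_, ?_, ?_⟩
    · rw [sympForm_add_right, sympForm_add_right, sympForm_smul_right, sympForm_smul_right, sympForm_self,
        hef1, mul_zero, add_zero, mul_one, F_add_self hF]
    · rw [sympForm_add_right, sympForm_add_right, sympForm_smul_right, sympForm_smul_right, sympForm_self,
        hfe1, mul_zero, add_zero, mul_one, F_add_self hF]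
    · rw [sympForm_add_right, sympForm_add_right, sympForm_smul_right, sympForm_smul_right, hw1,
        f_symm hF e2 e1, f_symm hF e2 f1, hp20, hp21, mul_zero, mul_zero, add_zero, add_zero]
  obtain ⟨f2, hf21, hf22, hf23, hf24⟩ : ∃ f2 : V, Q f2 = 0 ∧ f e1 f2 = 0 ∧ f f1 f2 = 0 ∧ f e2 f2 = 1 := by
    rcases F_cases hF (Q w') with h | h
    · exact ⟨w', h, hw'1, hw'2, hw'3⟩
    · refine ⟨w' + e2, ?_, ?_, ?_, ?_⟩
      · rw [hQ, h, hq2, f_symm hF, hw'3, add_zero, F_two hF]
      · rw [sympForm_add_right, hw'1, hp20, add_zero]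
      · rw [sympForm_add_right, hw'2, hp21, add_zero]
      · rw [sympForm_add_right, hw'3, sympForm_self, add_zero]
  have hf2e2 : f f2 e2 = 1 := by rw [f_symm hF, hf24]
  -- the last vector
  obtain ⟨v, hv0, hv⟩ := exists_perp (m := m) (F := F) (c := 4) (by omega) ![e1, f1, e2, f2]
  have hv1 : f e1 v = 0 := hv 0
  have hv2 : f f1 v = 0 := hv 1
  have hv3 : f e2 v = 0 := hv 2
  have hv4 : f f2 v = 0 := hv 3
  obtain ⟨v0, h0, h1, h2, h3, h4⟩ : ∃ v0 : V, Q v0 = 1 ∧ f e1 v0 = 0 ∧ f f1 v0 = 0 ∧ f e2 v0 = 0 ∧ f f2 v0 = 0 := by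
    rcases F_cases hF (Q v) with h | h
    · obtain ⟨y, hy⟩ : ∃ y, f v y ≠ 0 := by
        by_contra hcon
        push Not at hcon
        exact hv0 (eq_zero_of_forall_sympForm_right hcon)
      have hy1 := f_eq_one hF hy
      obtain ⟨y', hy'0, hy'1, hy'2, hy'3, hy'4⟩ : ∃ y' : V, f v y' = 1 ∧ f e1 y' = 0 ∧ f f1 y' = 0 ∧
          f e2 y' = 0 ∧ f f2 y' = 0 := by
        refine ⟨y + f f1 y • e1 + f e1 y • f1 + f f2 y • e2 + f e2 y • f2, ?_, ?_, ?_, ?_, ?_⟩
        all_goals simp only [sympForm_add_right, sympForm_smul_right, sympForm_self, hef1, hfe1, hf24, hf2e2,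
          hp20, hp21, hf22, hf23, f_symm hF e2 e1, f_symm hF e2 f1, f_symm hF f2 e1, f_symm hF f2 f1,
          f_symm hF v e1, f_symm hF v f1, f_symm hF v e2, f_symm hF v f2, hv1, hv2, hv3, hv4, hy1,
          mul_zero, mul_one, add_zero, F_add_self hF]
      rcases F_cases hF (Q y') with h' | h'
      · refine ⟨v + y', ?_, ?_, ?_, ?_, ?_⟩
        · rw [hQ, h, h', hy'0, add_zero, zero_add]
        · rw [sympForm_add_right, hv1, hy'1, add_zero]
        · rw [sympForm_add_right, hv2, hy'2, add_zero]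
        · rw [sympForm_add_right, hv3, hy'3, add_zero]
        · rw [sympForm_add_right, hv4, hy'4, add_zero]
      · exact ⟨y', h', hy'1, hy'2, hy'3, hy'4⟩
    · exact ⟨v, h, hv1, hv2, hv3, hv4⟩
  exact ⟨![e1, f1, e2, f2, v0], hq1, hqf1, hq2, hf21, h0, hef1, hf24, hp20, hf22, hp21, hf23, h1, h2, h3, h4⟩

/-- the vector with given coefficients -/
def B (ι : ZMod 2 →+* F) (b : Fin 5 → (Fin m ⊕ Fin m → F)) (c : Fin 5 → ZMod 2) : Fin m ⊕ Fin m → F :=
  ι (c 0) • b 0 + ι (c 1) • b 1 + ι (c 2) • b 2 + ι (c 3) • b 3 + ι (c 4) • b 4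

/-- the form in coordinates -/
def gram (c d : Fin 5 → ZMod 2) : ZMod 2 := c 0 * d 1 + c 1 * d 0 + c 2 * d 3 + c 3 * d 2

/-- the quadratic form in coordinates -/
def qf (c : Fin 5 → ZMod 2) : ZMod 2 := c 0 * c 1 + c 2 * c 3 + c 4

include hF in
theorem exists_iota : ∃ ι : ZMod 2 →+* F, Function.Injective ι := by
  have : CharP F 2 := CharTwo.of_one_ne_zero_of_two_eq_zero one_ne_zero (by rw [← one_add_one_eq_two, F_two hF])
  exact ⟨ZMod.castHom (dvd_refl 2) F, RingHom.injective _⟩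

include hF in
theorem f_B (ι : ZMod 2 →+* F) {b : Fin 5 → (Fin m ⊕ Fin m → F)} (hb : Frame Q b) (c d : Fin 5 → ZMod 2) :
    f (B ι b c) (B ι b d) = ι (gram c d) := by
  unfold B gram
  simp only [sympForm_add_left, sympForm_add_right, sympForm_smul_left, sympForm_smul_right, sympForm_self,
    hb.f01, hb.f23, hb.f02, hb.f03, hb.f12, hb.f13, hb.f04, hb.f14, hb.f24, hb.f34,
    f_symm hF (b 1) (b 0), f_symm hF (b 3) (b 2), f_symm hF (b 2) (b 0), f_symm hF (b 3) (b 0),
    f_symm hF (b 2) (b 1), f_symm hF (b 3) (b 1), f_symm hF (b 4) (b 0), f_symm hF (b 4) (b 1),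
    f_symm hF (b 4) (b 2), f_symm hF (b 4) (b 3), mul_zero, mul_one, add_zero, zero_add, map_add, map_mul]
  ring

include hF hQ in
theorem Q_smul (a : F) (v : V) : Q (a • v) = a * Q v := by
  rcases F_cases hF a with rfl | rfl
  · rw [zero_smul, zero_mul, Q_zero Q hQ]
  · rw [one_smul, one_mul]

include hF hQ in
theorem Q_B (ι : ZMod 2 →+* F) {b : Fin 5 → (Fin m ⊕ Fin m → F)} (hb : Frame Q b) (c : Fin 5 → ZMod 2) :
    Q (B ι b c) = ι (qf c) := by
  unfold B qf
  simp only [hQ, Q_smul hF Q hQ, sympForm_add_left, sympForm_smul_left, sympForm_smul_right,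
    hb.f01, hb.f23, hb.f02, hb.f03, hb.f12, hb.f13, hb.f04, hb.f14, hb.f24, hb.f34, hb.q0, hb.q1, hb.q2,
    hb.q3, hb.q4, mul_zero, mul_one, add_zero, zero_add, map_add, map_mul]
  try ring

include hF hQ in
theorem B_injective (ι : ZMod 2 →+* F) (hι : Function.Injective ι) {b : Fin 5 → (Fin m ⊕ Fin m → F)}
    (hb : Frame Q b) : Function.Injective (B ι b) := by
  intro c d h
  have h1 : ∀ x, gram c x = gram d x := by
    intro x
    apply hι
    rw [← f_B hF Q ι hb, ← f_B hF Q ι hb, h]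
  have h2 : qf c = qf d := by
    apply hι
    rw [← Q_B hF Q hQ ι hb, ← Q_B hF Q hQ ι hb, h]
  have e0 := h1 ![0, 1, 0, 0, 0]
  have e1 := h1 ![1, 0, 0, 0, 0]
  have e2 := h1 ![0, 0, 0, 1, 0]
  have e3 := h1 ![0, 0, 1, 0, 0]
  simp only [gram, qf, Matrix.cons_val, mul_zero, mul_one, add_zero, zero_add] at e0 e1 e2 e3 h2
  rw [e0, e1, e2, e3, add_right_inj] at h2
  funext i
  fin_cases i <;> assumption

end vec

end Cfsg.Agent.H397.KHomSp
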