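import Cfsg.Agent.H397.ZTwo
import Cfsg.Agent.HKS.AllOf
import Cfsg.Agent.HKS.GoalRee

/-!
# The simple group of `ZTwo.Setup` is `PSL(2,p)` on `p + 1` points

By the Hering-Kantor-Seitz theorem.
-/

set_option autoImplicit false

namespace Cfsg.Agent.H397.ZPsl

open Subgroup MulAction Cfsg.Agent.HKS Cfsg.Agent.H397.ZTwo

universe u

variable {G Ω : Type u} [Group G] [MulAction G Ω] {S : Subgroup G}

/-- the unipotent groups of the simple group -/
def U (S : Subgroup G) (a : Ω) : Subgroup S := (F G a).subgroupOf S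

theorem mem_U {a : Ω} {x : S} : x ∈ U S a ↔ (x : G) ∈ F G a := Iff.rfl

theorem even (h : Setup G Ω S) : Even (Nat.card Ω) := by
  by_contra hodd
  have := h.finG
  have := h.finΩ
  have := h.simple
  have h3 := h.three
  have h2 : 2 ∣ Nat.card Ω - 1 := by
    rw [Nat.not_even_iff_odd] at hodd
    obtain ⟨k, hk⟩ := hodd
    exact ⟨k, by omega⟩
  obtain ⟨a⟩ : Nonempty Ω := by
    rw [← Finite.card_pos_iff]; omega
  obtain ⟨P, hP⟩ := h.exists_sylow (p := 2) a h2
  have hPS : (P : Subgroup G) ≤ S := hP.trans (h.F_le_S a)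
  have hcyc := h.F_cyclic a
  have hPc : IsCyclic (P : Subgroup G) := Subgroup.isCyclic_of_le hP
  have hQ : IsCyclic ↥((P.subtype hPS : Sylow 2 S) : Subgroup S) :=
    isCyclic_of_surjective _ (Subgroup.subgroupOfEquivOfLe hPS).symm.surjective
  have hdvd : 2 ∣ Nat.card S := by
    refine h2.trans ?_
    rw [← h.card_F a]
    exact card_dvd_of_le (h.F_le_S a)
  refine false_of_transfer' h.nonab (P.subtype hPS) ?_ ?_
  · exact (P.subtype hPS).ne_bot_of_dvd_card hdvd
  · exact hQ.normalizer_le_centralizer ((Nat.minFac_eq_two_iff _).2 hdvd)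

theorem isCyclic_U (h : Setup G Ω S) (a : Ω) : IsCyclic (U S a) := by
  have := h.F_cyclic a
  exact isCyclic_of_surjective _ (Subgroup.subgroupOfEquivOfLe (h.F_le_S a)).symm.surjective

theorem card_U (h : Setup G Ω S) (a : Ω) : Nat.card (U S a) = Nat.card Ω - 1 := by
  rw [← h.card_F a]
  exact Nat.card_congr (Subgroup.subgroupOfEquivOfLe (h.F_le_S a)).toEquiv

theorem ssplit (h : Setup G Ω S) : SSplit (U (Ω := Ω) S) where
  fix := fun {a} _ hx => F_le (G := G) a hx
  conj := fun g a x hx => conj_mem_F (g := (g : G)) hx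
  trans := by
    intro a b c hb hc
    obtain ⟨x, hx, hxb⟩ := h.trans_F hb hc
    exact ⟨⟨x, h.F_le_S a hx⟩, hx, hxb⟩
  free := by
    intro a b x hb hx hxb
    exact Subtype.ext (h.free hb hx hxb)
  nil := by
    intro a
    have := isCyclic_U h a
    exact @CommGroup.isNilpotent _ IsCyclic.commGroup
  three := by
    intro a b
    have := h.finΩ
    classical
    have := Fintype.ofFinite Ω
    have h3 := h.three
    rw [Nat.card_eq_fintype_card] at h3
    obtain ⟨c, hc⟩ := Finset.exists_mem_notMem_of_card_lt_card (s := {a, b}) (t := Finset.univ)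
      (lt_of_le_of_lt Finset.card_le_two (by rw [Finset.card_univ]; omega))
    rw [Finset.mem_insert, Finset.mem_singleton, not_or] at hc
    exact ⟨c, hc.2.1, hc.2.2⟩

theorem iSup_eq_top (h : Setup G Ω S) : (⨆ c, U (Ω := Ω) S c) = ⊤ := by
  have := h.finΩ
  have := h.simple
  have hs := ssplit h
  have h3 := h.three
  obtain ⟨a⟩ : Nonempty Ω := by
    rw [← Finite.card_pos_iff]; omega
  rcases hs.iSup_normal.eq_bot_or_eq_top with h4 | h4
  · exfalso
    obtain ⟨b, hb, -⟩ := hs.three a a
    obtain ⟨c, hca, hcb⟩ := hs.three a b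
    obtain ⟨x, hx, hxb⟩ := hs.trans (a := a) (b := b) (c := c) hb hca
    have h5 : x ∈ (⨆ c, U (Ω := Ω) S c) := mem_iSup_of_mem a hx
    rw [h4] at h5
    rw [mem_bot.1 h5, one_smul] at hxb
    exact hcb hxb.symm
  · exact h4

/-- **The simple group is `PSL(2,p)` on `p + 1` points.** -/
theorem main (h : Setup G Ω S) : ∃ p : ℕ, p.Prime ∧ 3 < p ∧ Nat.card Ω = p + 1 ∧
    ∃ (F : Type) (_ : Field F) (_ : Fintype F), Fintype.card F = p ∧
      Nonempty (S ≃* Matrix.ProjectiveSpecialLinearGroup (Fin 2) F) := by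
  have := h.finG
  have := h.finΩ
  have := h.simple
  have := h.faithful
  have hs := ssplit h
  have h3 := h.three
  have hev := even h
  obtain ⟨a⟩ : Nonempty Ω := by
    rw [← Finite.card_pos_iff]; omega
  obtain ⟨b, hba, -⟩ := hs.three a a
  have hT := all_of goalRee (Nat.card Ω + 1) S Ω (U S) hs (iSup_eq_top h) hev
    (Nat.lt_succ_self _) a b hba
  have hcyc := isCyclic_U h a
  have hcomm : ∀ u ∈ U S a, ∀ v ∈ U S a, u * v = v * u := by
    intro u hu v hv
    have := (IsCyclic.commGroup (α := U S a)).mul_comm ⟨u, hu⟩ ⟨v, hv⟩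
    exact congrArg Subtype.val this
  rcases hT with hT | ⟨q, hT⟩ | ⟨q, hT⟩ | ⟨n, hT⟩
  · -- affine
    exfalso
    obtain ⟨E, hEn, -, -, hEt, hEf, -, -, -⟩ := hs.sharp_normal hev hba hT
    rcases hEn.eq_bot_or_eq_top with h4 | h4
    · obtain ⟨x, hx, hxb⟩ := hEt a b
      rw [h4] at hx
      rw [mem_bot.1 hx, one_smul] at hxb
      exact hba hxb.symm
    · obtain ⟨c, hca, hcb⟩ := hs.three a b
      obtain ⟨x, hx, hxb⟩ := hs.trans (a := a) (b := b) (c := c) hba hca
      have h5 : x = 1 := hEf a x (by rw [h4]; exact mem_top x) (hs.fix hx)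
      rw [h5, one_smul] at hxb
      exact hcb hxb.symm
  · -- `PSL(2,q)`
    have hcq : Nat.card (U S a) = q := hT.card
    have hq1 : q = Nat.card Ω - 1 := by rw [← hcq, card_U h]
    obtain ⟨p, k, hp, hk, hpk⟩ := hT.pow
    rw [← Nat.prime_iff] at hp
    have : Fact p.Prime := ⟨hp⟩
    have hpq : p ∣ Nat.card (U S a) := by
      rw [hcq, ← hpk]; exact dvd_pow_self p hk.ne'
    obtain ⟨z, hz⟩ := exists_prime_orderOf_dvd_card' p hpq
    have hE : Nat.card (Dab S a b) ≤ p - 1 := by
      classical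
      have := Fintype.ofFinite (U S a)
      have h5 : ∀ d : Dab S a b, (d : S) * (z : S) * (d : S)⁻¹ ∈ U S a := by
        intro d
        have h6 := hs.conj (d : S) z.2
        rwa [show (d : S) • a = a from d.2.1] at h6
      have h6 : (Finset.univ.filter fun x : U S a => orderOf x = p).card = p - 1 := by
        rw [IsCyclic.card_orderOf_eq_totient (by rwa [← Nat.card_eq_fintype_card]),
          Nat.totient_prime hp]
      rw [← h6, ← Fintype.card_coe, ← Nat.card_eq_fintype_card]
      refine Nat.card_le_card_of_injective (fun d : Dab S a b =>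
        (⟨⟨_, h5 d⟩, ?_⟩ : {x // x ∈ Finset.univ.filter fun x : U S a => orderOf x = p})) ?_
      · rw [Finset.mem_filter]
        refine ⟨Finset.mem_univ _, ?_⟩
        rw [orderOf_mk, ← hz]
        exact (orderOf_injective (MulAut.conj (d : S)).toMonoidHom (MulAut.conj (d : S)).injective z).trans
          (orderOf_submonoid z)
      · intro d e hde
        have h7 : (d : S) * (z : S) * (d : S)⁻¹ = (e : S) * (z : S) * (e : S)⁻¹ :=
          congrArg (fun x => ((x.1 : U S a) : S)) hde
        have h8 : ((e : S)⁻¹ * d) * z = z * ((e : S)⁻¹ * d) := by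
          have h9 : (e : S)⁻¹ * ((d : S) * (z : S) * (d : S)⁻¹) * (d : S) =
              (e : S)⁻¹ * ((e : S) * (z : S) * (e : S)⁻¹) * (d : S) := by rw [h7]
          calc ((e : S)⁻¹ * d) * z = (e : S)⁻¹ * ((d : S) * (z : S) * (d : S)⁻¹) * (d : S) := by group
            _ = (e : S)⁻¹ * ((e : S) * (z : S) * (e : S)⁻¹) * (d : S) := h9
            _ = z * ((e : S)⁻¹ * d) := by group
        rcases hT.free _ (mul_mem (inv_mem e.2) d.2) z z.2 h8 with h9 | h9
        · exact Subtype.ext (inv_mul_eq_one.1 (mem_bot.1 h9)).symm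
        · exfalso
          have h10 : z = 1 := Subtype.ext h9
          rw [h10, orderOf_one] at hz
          exact hp.one_lt.ne hz
    have hE2 : 2 * Nat.card (Dab S a b) = q - 1 := by
      have := hT.cardE
      rwa [relIndex_bot_left] at this
    have hqp : q = p := by
      rcases Nat.lt_or_ge k 2 with h5 | h5
      · have : k = 1 := by omega
        rw [← hpk, this, pow_one]
      · exfalso
        have h6 : p ^ 2 ≤ q := by
          rw [← hpk]; exact Nat.pow_le_pow_right hp.pos h5
        have h7 := hp.two_le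
        have h8 : q - 1 ≤ 2 * (p - 1) := by omega
        have h9 : q + 1 ≤ 2 * p := by omega
        nlinarith
    subst hqp
    refine ⟨q, hp, hT.three, by omega, ?_⟩
    obtain ⟨F, i1, i2, hF, hf⟩ := hT.iso
    exact ⟨F, i1, i2, hF, Final.mulEquiv_of_top hf⟩
  · exfalso
    have h5 := hT.cardZ
    have h6 : (U S a ⊓ centralizer (U S a : Set S) : Subgroup S) = U S a := by
      rw [inf_eq_left]
      intro x hx
      rw [mem_centralizer_iff]
      intro y hy
      exact hcomm y hy x hx
    rw [h6, hT.card] at h5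
    have h7 := hT.pow.two_le
    have : q ^ 3 = q * (q * q) := by ring
    have : q < q ^ 3 := by
      rw [this]; nlinarith
    omega
  · exfalso
    obtain ⟨u, hu, v, hv, huv⟩ := hT.data.ncomm
    exact huv (hcomm u hu v hv)

end Cfsg.Agent.H397.ZPsl
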