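import Cfsg.Agent.H397.ZPrim
import Cfsg.Agent.SignalizersComponents.ComponentExists
import Cfsg.Agent.TwoFusion.SLTwoFacts

/-!
# Products of a cyclic group and a Z-group

`main_ind`: a nontrivial finite group `Y = AB`, `A` cyclic, `B` with cyclic Sylow subgroups, without solvable
normal subgroups is `PGL(2,p)`.
-/

set_option autoImplicit false

namespace Cfsg.Agent.H397.ZRed

open Subgroup MulAction Cfsg.Agent.H397.ZPrim

/-- no nontrivial solvable normal subgroups -/
def NR (G : Type*) [Group G] : Prop := ∀ N : Subgroup G, N.Normal → Group.IsSolvable N → N = ⊥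

theorem isSolvable_map {G H : Type*} [Group G] [Group H] (f : G →* H) {S : Subgroup G}
    (hS : Group.IsSolvable S) : Group.IsSolvable (S.map f) :=
  Group.isSolvable_of_surjective (f := f.subgroupMap S) (f.subgroupMap_surjective S)

theorem isSolvable_comap_inj {G H : Type*} [Group G] [Group H] {f : G →* H} (hf : Function.Injective f)
    {S : Subgroup H} (hS : Group.IsSolvable S) : Group.IsSolvable (S.comap f) := by
  refine Group.isSolvable_of_isSolvable_injective (f := f.subgroupComap S) ?_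
  intro x y hxy
  exact Subtype.ext (hf (congrArg Subtype.val hxy))

theorem NR.sub {G : Type*} [Group G] [Finite G] (h : NR G) {N : Subgroup G} (hN : N.Normal) : NR N := by
  obtain ⟨R, h1, h2, h3⟩ :=
    Cfsg.Agent.SignalizersComponents.ComponentExists.exists_solvableRadical N
  have h4 : (R.map N.subtype).Normal := inferInstance
  have h5 := h _ h4 (isSolvable_map _ h2)
  intro S hS hSs
  have h6 : S.map N.subtype ≤ ⊥ := h5 ▸ map_mono (h3 S hS hSs)
  exact (Subgroup.map_eq_bot_iff_of_injective _ N.subtype_injective).1 (le_bot_iff.1 h6)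

theorem NR.center {G : Type*} [Group G] (h : NR G) : center G = ⊥ :=
  h _ inferInstance (Group.isSolvable_of_comm fun a b => Subtype.ext (Subgroup.mem_center_iff.1 b.2 a))

theorem NR.conj_injective {N : Type*} [Group N] (h : NR N) :
    Function.Injective (MulAut.conj : N →* MulAut N) := by
  rw [injective_iff_map_eq_one]
  intro n hn
  have h1 : n ∈ Subgroup.center N := mem_center_iff.2 fun x => by
    have h2 := congrArg (fun φ : MulAut N => φ x) hn
    simp only [MulAut.conj_apply, MulAut.one_apply] at h2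
    rw [mul_inv_eq_iff_eq_mul] at h2
    exact h2.symm
  rwa [h.center, mem_bot] at h1

theorem conj_apply_eq {N : Type*} [Group N] (s : MulAut N) (n : N) :
    s * MulAut.conj n * s⁻¹ = MulAut.conj (s n) := by
  ext x
  simp only [MulAut.mul_apply, MulAut.conj_apply, map_mul, map_inv, MulAut.apply_inv_self]

/-- A solvable group of automorphisms normalised by the inner ones. -/
theorem NR.aut {N : Type*} [Group N] (h : NR N) (S : Subgroup (MulAut N)) (hS : Group.IsSolvable S)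
    (hn : ∀ n : N, ∀ s ∈ S, MulAut.conj n * s * (MulAut.conj n)⁻¹ ∈ S) : S = ⊥ := by
  have hS'n : (S.comap (MulAut.conj : N →* MulAut N)).Normal := ⟨fun s hs n => by
    rw [mem_comap] at hs ⊢
    rw [map_mul, map_mul, map_inv]
    exact hn n _ hs⟩
  have hS' := h _ hS'n (isSolvable_comap_inj h.conj_injective hS)
  rw [eq_bot_iff]
  intro s hs
  rw [mem_bot]
  ext n
  have h1 : s n * n⁻¹ ∈ S.comap (MulAut.conj : N →* MulAut N) := by
    rw [mem_comap, map_mul, map_inv, ← conj_apply_eq]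
    have h2 := mul_mem hs (hn n _ (inv_mem hs))
    convert h2 using 1
    group
  rw [hS', mem_bot, mul_inv_eq_one] at h1
  exact h1

/-- `Y = AB`, `A` cyclic, `B` a Z-group -/
structure Fac (Y : Type*) [Group Y] (A B : Subgroup Y) : Prop where
  cyc : IsCyclic A
  zg : IsZGroup B
  fac : ∀ g : Y, ∃ a ∈ A, ∃ b ∈ B, g = a * b

namespace Fac

section

variable {Y Z : Type*} [Group Y] [Group Z] {A B : Subgroup Y}

theorem map [Finite Y] (h : Fac Y A B) (f : Y →* Z) (hf : Function.Surjective f) :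
    Fac Z (A.map f) (B.map f) := by
  have h1 := h.cyc
  have h2 := h.zg
  refine ⟨isCyclic_of_surjective (f.subgroupMap A) (f.subgroupMap_surjective A),
    IsZGroup.of_surjective (f.subgroupMap_surjective B), ?_⟩
  intro g
  obtain ⟨y, rfl⟩ := hf g
  obtain ⟨a, ha, b, hb, rfl⟩ := h.fac y
  exact ⟨f a, mem_map_of_mem f ha, f b, mem_map_of_mem f hb, map_mul f a b⟩

theorem sub (h : Fac Y A B) {H : Subgroup Y} (hB : B ≤ H) : Fac H (A.subgroupOf H) (B.subgroupOf H) := by
  have h1 := h.cyc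
  have h2 := h.zg
  refine ⟨?_, ?_, ?_⟩
  · refine isCyclic_of_injective (H.subtype.subgroupComap A) ?_
    intro x y hxy
    exact Subtype.ext (Subtype.ext (congrArg (fun z : A => (z : Y)) hxy))
  · refine IsZGroup.of_injective (f := H.subtype.subgroupComap B) ?_
    intro x y hxy
    exact Subtype.ext (Subtype.ext (congrArg (fun z : B => (z : Y)) hxy))
  · rintro ⟨g, hg⟩
    obtain ⟨a, ha, b, hb, hgab⟩ := h.fac g
    have haH : a ∈ H := by
      have h3 : a = g * b⁻¹ := by rw [hgab]; group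
      rw [h3]
      exact mul_mem hg (inv_mem (hB hb))
    exact ⟨⟨a, haH⟩, ha, ⟨b, hB hb⟩, hb, Subtype.ext hgab⟩

theorem fac' (h : Fac Y A B) (g : Y) : ∃ b ∈ B, ∃ a ∈ A, g = b * a := by
  obtain ⟨a, ha, b, hb, hg⟩ := h.fac g⁻¹
  exact ⟨b⁻¹, inv_mem hb, a⁻¹, inv_mem ha, by rw [← mul_inv_rev, ← hg, inv_inv]⟩

theorem inf [Finite Y] (h : Fac Y A B) (hr : NR Y) : A ⊓ B = ⊥ := by
  have h1 := h.zg
  have h2 := h.cyc
  have hle : normalClosure ((A ⊓ B : Subgroup Y) : Set Y) ≤ B := by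
    rw [normalClosure, closure_le]
    intro x hx
    rw [Group.mem_conjugatesOfSet_iff] at hx
    obtain ⟨d, hd, hdx⟩ := hx
    rw [isConj_iff] at hdx
    obtain ⟨g, rfl⟩ := hdx
    obtain ⟨b, hb, a, ha, rfl⟩ := h.fac' g
    have h3 : a * d = d * a :=
      congrArg Subtype.val ((IsCyclic.commGroup (α := A)).mul_comm ⟨a, ha⟩ ⟨d, hd.1⟩)
    have h4 : b * a * d * (b * a)⁻¹ = b * d * b⁻¹ := by
      rw [mul_assoc b a d, h3]; group
    rw [h4]
    exact mul_mem (mul_mem hb hd.2) (inv_mem hb)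
  have hs : Group.IsSolvable (normalClosure ((A ⊓ B : Subgroup Y) : Set Y)) :=
    Group.isSolvable_of_isSolvable_injective (f := Subgroup.inclusion hle)
      (Subgroup.inclusion_injective _)
  have h3 := hr _ normalClosure_normal hs
  rw [eq_bot_iff, ← h3]
  exact le_normalClosure

theorem card [Finite Y] (h : Fac Y A B) (hr : NR Y) : Nat.card A * Nat.card B = Nat.card Y := by
  refine (isComplement'_of_disjoint_and_mul_eq_univ (disjoint_iff.2 (h.inf hr)) ?_).card_mul_card
  rw [Set.eq_univ_iff_forall]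
  intro g
  obtain ⟨a, ha, b, hb, rfl⟩ := h.fac g
  exact Set.mul_mem_mul ha hb

theorem card_le [Finite Y] (h : Fac Y A B) : Nat.card Y ≤ Nat.card A * Nat.card B := by
  rw [← Nat.card_prod]
  refine Nat.card_le_card_of_surjective (fun x : A × B => (x.1 : Y) * x.2) ?_
  intro g
  obtain ⟨a, ha, b, hb, rfl⟩ := h.fac g
  exact ⟨(⟨a, ha⟩, ⟨b, hb⟩), rfl⟩

theorem card_map_rangeRestrict (C : Subgroup Y) (f : Y →* Z) :
    Nat.card (C.map f.rangeRestrict) = Nat.card (C.map f) := by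
  rw [← f.subtype_comp_rangeRestrict, ← map_map]
  exact Nat.card_congr (equivMapOfInjective _ _ f.range.subtype_injective).toEquiv

theorem card_range_le [Finite Y] (h : Fac Y A B) (f : Y →* Z) :
    Nat.card f.range ≤ Nat.card (A.map f) * Nat.card (B.map f) := by
  have hf : Finite f.range := Finite.of_surjective _ f.rangeRestrict_surjective
  have := (h.map f.rangeRestrict f.rangeRestrict_surjective).card_le
  rwa [card_map_rangeRestrict, card_map_rangeRestrict] at this

end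

end Fac

theorem two_card_le {G₁ G₂ : Type*} [Group G₁] [Group G₂] [Finite G₁] [Finite G₂]
    {U : Subgroup (G₁ × G₂)} (hU : IsZGroup U) {P : Subgroup G₁} {Q : Subgroup G₂}
    (hUPQ : U ≤ P.prod Q) (hP : 2 ∣ Nat.card P) (hQ : 2 ∣ Nat.card Q) :
    Nat.card U * 2 ≤ Nat.card P * Nat.card Q := by
  classical
  have hc : Nat.card (P.prod Q) = Nat.card P * Nat.card Q := by
    rw [Nat.card_congr (Subgroup.prodEquiv P Q).toEquiv, Nat.card_prod]
  obtain ⟨k, hk⟩ := Subgroup.card_dvd_of_le hUPQ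
  rw [← hc, hk]
  apply Nat.mul_le_mul_left
  by_contra hk2
  have hpos : 0 < Nat.card (P.prod Q) := Nat.card_pos
  have hk1 : k = 1 := by
    rcases Nat.eq_zero_or_pos k with h0 | h0
    · rw [h0, mul_zero] at hk; omega
    · omega
  rw [hk1, mul_one] at hk
  have hEq : U = P.prod Q := Subgroup.eq_of_le_of_card_ge hUPQ hk.le
  have : Fact (Nat.Prime 2) := ⟨Nat.prime_two⟩
  obtain ⟨x, hx⟩ := exists_prime_orderOf_dvd_card' 2 hP
  obtain ⟨y, hy⟩ := exists_prime_orderOf_dvd_card' 2 hQ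
  have hx' : orderOf (x : G₁) = 2 := by rw [Subgroup.orderOf_coe]; exact hx
  have hy' : orderOf (y : G₂) = 2 := by rw [Subgroup.orderOf_coe]; exact hy
  obtain ⟨V, hV⟩ : ∃ V, V = (zpowers (x : G₁)).prod (zpowers (y : G₂)) := ⟨_, rfl⟩
  have hVU : V ≤ U := by
    rw [hV, hEq]
    exact Subgroup.prod_mono (zpowers_le.2 x.2) (zpowers_le.2 y.2)
  have hVz : IsZGroup V :=
    IsZGroup.of_injective (f := Subgroup.inclusion hVU) (Subgroup.inclusion_injective hVU)
  have hV4 : Nat.card V = 2 ^ 2 := by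
    rw [hV, Nat.card_congr (Subgroup.prodEquiv _ _).toEquiv, Nat.card_prod, Nat.card_zpowers,
      Nat.card_zpowers, hx', hy', sq]
  have hVp : IsPGroup 2 (⊤ : Subgroup V) := (IsPGroup.of_card hV4).to_subgroup _
  have hVc : IsCyclic (⊤ : Subgroup V) := hVp.isCyclic_of_isZGroup
  have hVc' : IsCyclic V := isCyclic_of_surjective (⊤ : Subgroup V).subtype
    (fun z => ⟨⟨z, mem_top z⟩, rfl⟩)
  have hxV : ((x : G₁), (1 : G₂)) ∈ V := by
    rw [hV]; exact ⟨mem_zpowers _, one_mem _⟩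
  have hyV : ((1 : G₁), (y : G₂)) ∈ V := by
    rw [hV]; exact ⟨one_mem _, mem_zpowers _⟩
  have ho1 : orderOf (⟨_, hxV⟩ : V) = 2 := by
    rw [← Subgroup.orderOf_coe, Prod.orderOf_mk, orderOf_one, hx']; rfl
  have ho2 : orderOf (⟨_, hyV⟩ : V) = 2 := by
    rw [← Subgroup.orderOf_coe, Prod.orderOf_mk, orderOf_one, hy']; rfl
  obtain ⟨i, hi⟩ := Cfsg.Agent.H397.ZTwo.mem_zpowers_of_orderOf_eq (ho1.trans ho2.symm)
  have h3 := congrArg (fun z : V => (z : G₁ × G₂).2) hi
  simp only [SubgroupClass.coe_zpow, Prod.pow_snd, one_zpow] at h3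
  rw [← h3, orderOf_one] at hy'
  omega

universe u

theorem not_solvable {Y : Type*} [Group Y] [Nontrivial Y] (hr : NR Y) : ¬ Group.IsSolvable Y := by
  intro hs
  exact top_ne_bot (hr ⊤ inferInstance inferInstance)

/-- the case `Y = BN` -/
theorem step1 {Y : Type u} [Group Y] [Finite Y] [Nontrivial Y] {A B : Subgroup Y} (h : Fac Y A B)
    (hr : NR Y) {N : Subgroup Y} (hN : N.Normal)
    (hmin : ∀ K : Subgroup Y, K.Normal → K ≤ N → K = ⊥ ∨ K = N) (htop : B ⊔ N = ⊤) :
    ∃ p, Concl Y p ∧ Nat.card B = p * (p - 1) := by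
  have hz := h.zg
  have hcy := h.cyc
  have hns := not_solvable hr
  have hB : B ≠ ⊤ := by
    rintro rfl
    exact hns (Group.isSolvable_of_surjective (f := (⊤ : Subgroup Y).subtype) fun z => ⟨⟨z, mem_top z⟩, rfl⟩)
  obtain ⟨M, hM, hBM⟩ := (eq_top_or_exists_le_coatom B).resolve_left hB
  have hNM : ¬ N ≤ M := fun h' => hM.1 (eq_top_iff.2 (htop ▸ sup_le hBM h'))
  have hK : M.normalCore = ⊥ := by
    apply hr _ inferInstance
    have h1 : M.normalCore ⊓ N = ⊥ := by
      rcases hmin (M.normalCore ⊓ N) inferInstance inf_le_right with h1 | h1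
      · exact h1
      · exact absurd ((inf_eq_right.1 h1).trans M.normalCore_le) hNM
    have h2 : Function.Surjective ((QuotientGroup.mk' N).comp B.subtype) := by
      intro x
      obtain ⟨g, rfl⟩ := QuotientGroup.mk'_surjective N x
      obtain ⟨b, hb, n, hn, rfl⟩ := mem_sup_of_normal_right.1 (htop ▸ mem_top g)
      refine ⟨⟨b, hb⟩, ?_⟩
      have h3 : QuotientGroup.mk' N n = 1 := (QuotientGroup.eq_one_iff n).2 hn
      change QuotientGroup.mk' N b = QuotientGroup.mk' N (b * n)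
      rw [map_mul, h3, mul_one]
    have h3 : Group.IsSolvable (Y ⧸ N) := Group.isSolvable_of_surjective h2
    refine Group.isSolvable_of_isSolvable_injective
      (f := (QuotientGroup.mk' N).comp M.normalCore.subtype) ?_
    rw [injective_iff_map_eq_one]
    intro x hx
    have h4 : (x : Y) ∈ N := (QuotientGroup.eq_one_iff _).1 hx
    have h5 : (x : Y) ∈ M.normalCore ⊓ N := ⟨x.2, h4⟩
    rw [h1, mem_bot] at h5
    exact Subtype.ext h5
  have hfaith : FaithfulSMul Y (Y ⧸ M) := by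
    refine ⟨fun {g₁ g₂} hg => ?_⟩
    have hinj : Function.Injective (MulAction.toPermHom Y (Y ⧸ M)) := by
      rw [← MonoidHom.ker_eq_bot_iff, ← normalCore_eq_ker]
      exact hK
    exact hinj (Equiv.ext hg)
  have hst : stabilizer Y ((1 : Y) : Y ⧸ M) = M := stabilizer_quotient M
  have hnt : Nontrivial (Y ⧸ M) := by
    rw [← Finite.one_lt_card_iff_nontrivial]
    change 1 < M.index
    have h1 : M.index ≠ 1 := fun h' => hM.1 (index_eq_one.1 h')
    have h2 : M.index ≠ 0 := index_ne_zero_of_finite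
    omega
  have hprim : IsPreprimitive Y (Y ⧸ M) := by
    rw [← isCoatom_stabilizer_iff_preprimitive Y ((1 : Y) : Y ⧸ M), hst]
    exact hM
  have hmk : ∀ x : Y ⧸ M, ∃ a ∈ A, ((a : Y) : Y ⧸ M) = x := by
    intro x
    induction x using QuotientGroup.induction_on with
    | H g =>
      obtain ⟨a, ha, b, hb, rfl⟩ := h.fac g
      refine ⟨a, ha, ?_⟩
      rw [QuotientGroup.eq]
      have h3 : a⁻¹ * (a * b) = b := by group
      rw [h3]
      exact hBM hb
  have htr : ∀ x y : Y ⧸ M, ∃ g ∈ A, g • x = y := by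
    intro x y
    obtain ⟨a, ha, rfl⟩ := hmk x
    obtain ⟨b, hb, rfl⟩ := hmk y
    refine ⟨b * a⁻¹, mul_mem hb (inv_mem ha), ?_⟩
    rw [MulAction.Quotient.smul_coe, smul_eq_mul, inv_mul_cancel_right]
  have hcomm : ∀ x ∈ A, ∀ y ∈ A, x * y = y * x := by
    intro x hx y hy
    exact congrArg Subtype.val ((IsCyclic.commGroup (α := A)).mul_comm ⟨x, hx⟩ ⟨y, hy⟩)
  have hMB : M = B := by
    refine le_antisymm ?_ hBM
    intro m hm
    obtain ⟨a, ha, b, hb, rfl⟩ := h.fac m
    have h3 : a ∈ M := (M.mul_mem_cancel_right (hBM hb)).1 hm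
    have h4 : a • ((1 : Y) : Y ⧸ M) = ((1 : Y) : Y ⧸ M) := by
      rw [← hst] at h3
      exact h3
    rw [regular hcomm htr ha h4, one_mul]
    exact hb
  have hz' : ∀ x : Y ⧸ M, IsZGroup (stabilizer Y x) := by
    intro x
    obtain ⟨g, hg⟩ := exists_smul_eq Y x ((1 : Y) : Y ⧸ M)
    have e := stabilizerEquivStabilizer hg.symm
    have hz1 : IsZGroup (stabilizer Y ((1 : Y) : Y ⧸ M)) := by
      rw [hst, hMB]; exact hz
    exact IsZGroup.of_injective (f := e.toMonoidHom) e.injective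
  obtain ⟨p, hp, hC⟩ := ZPrim.main hprim hns A hcy htr hz'
  refine ⟨p, hC, ?_⟩
  have h5 : Nat.card B * (p + 1) = p * (p - 1) * (p + 1) := by
    have h6 : Nat.card M * M.index = Nat.card Y := M.card_mul_index
    have h7 : M.index = p + 1 := hp
    rw [h7, hMB, hC.card] at h6
    rw [h6]
    have h8 : p ^ 2 - 1 = (p - 1) * (p + 1) := by
      obtain ⟨k, rfl⟩ : ∃ k, p = k + 1 := ⟨p - 1, by have := hC.three; omega⟩
      rw [Nat.add_sub_cancel]
      have : (k + 1) ^ 2 = k * (k + 1 + 1) + 1 := by ring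
      omega
    rw [h8, mul_assoc]
  exact Nat.eq_of_mul_eq_mul_right (by omega) h5

/-- the situation at a minimal normal subgroup -/
structure Loc {Y : Type u} [Group Y] (B : Subgroup Y) (N : Subgroup Y) [N.Normal] (p : ℕ) : Prop where
  prime : p.Prime
  three : 3 < p
  top : (B ⊔ N).map (MulAut.conjNormal : Y →* MulAut N) = ⊤
  cardAut : Nat.card (MulAut N) = p * (p ^ 2 - 1)
  cardN : Nat.card N * 2 = p * (p ^ 2 - 1)
  cardB : Nat.card (B.map (MulAut.conjNormal : Y →* MulAut N)) = p * (p - 1)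

open scoped commutatorElement in
theorem step2 {Y : Type u} [Group Y] [Finite Y] {A B : Subgroup Y} (h : Fac Y A B) (hr : NR Y)
    {N : Subgroup Y} [hN : N.Normal] (hN1 : N ≠ ⊥)
    (hmin : ∀ K : Subgroup Y, K.Normal → K ≤ N → K = ⊥ ∨ K = N)
    (hind : ∀ (X : Type u) [Group X] [Finite X] [Nontrivial X] (A' B' : Subgroup X),
      Nat.card X ≤ Nat.card ↥(B ⊔ N) → Fac X A' B' → NR X → ∃ p, Concl X p ∧ Nat.card B' = p * (p - 1)) :
    ∃ p, Loc B N p := by
  have hrN := hr.sub hN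
  have hntN : Nontrivial N := (Subgroup.nontrivial_iff_ne_bot N).2 hN1
  have hperf : commutator N = ⊤ := by
    rcases hmin ((commutator N).map N.subtype) inferInstance (map_subtype_le _) with h1 | h1
    · exfalso
      have h2 : commutator N = ⊥ := (map_eq_bot_iff_of_injective _ N.subtype_injective).1 h1
      have h3 : Group.IsSolvable N := Group.isSolvable_of_comm fun a b => by
        have h4 : ⁅a, b⁆ ∈ commutator N := commutator_mem_commutator (mem_top a) (mem_top b)
        rw [h2, mem_bot, commutatorElement_eq_one_iff_mul_comm] at h4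
        exact h4
      exact not_solvable hrN h3
    · rw [eq_top_iff]
      intro x _
      have h2 : (x : Y) ∈ (commutator N).map N.subtype := by
        rw [h1]; exact x.2
      obtain ⟨y, hy, hyx⟩ := h2
      rwa [← show y = x from Subtype.ext hyx]
  obtain ⟨φ, hφ⟩ : ∃ φ : Y →* MulAut N, φ = MulAut.conjNormal := ⟨_, rfl⟩
  have hφN : ∀ n : N, φ (n : Y) = MulAut.conj n := by
    intro n
    rw [hφ]
    ext x
    simp [MulAut.conjNormal_apply, MulAut.conj_apply]
  obtain ⟨H, hH⟩ : ∃ H, H = B ⊔ N := ⟨_, rfl⟩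
  have hBH : B ≤ H := by rw [hH]; exact le_sup_left
  have hNH : N ≤ H := by rw [hH]; exact le_sup_right
  obtain ⟨X, hXdef⟩ : ∃ X, X = H.map φ := ⟨_, rfl⟩
  have hconj : ∀ n : N, MulAut.conj n ∈ X := fun n => by
    rw [hXdef]; exact ⟨n, hNH n.2, hφN n⟩
  let ι : N →* X := (MulAut.conj : N →* MulAut N).codRestrict X hconj
  have hι : Function.Injective ι := fun x y hxy => hrN.conj_injective (congrArg Subtype.val hxy)
  have hX : NR X := by
    intro S hS hSs
    have h1 := hrN.aut (S.map X.subtype) (isSolvable_map _ hSs) (by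
      rintro n _ ⟨s, hs, rfl⟩
      exact ⟨ι n * s * (ι n)⁻¹, hS.conj_mem s hs (ι n), rfl⟩)
    exact (map_eq_bot_iff_of_injective _ X.subtype_injective).1 h1
  have hntX : Nontrivial X := hι.nontrivial
  let f : H →* X := (φ.comp H.subtype).codRestrict X (fun x => by rw [hXdef]; exact ⟨x, x.2, rfl⟩)
  have hf : Function.Surjective f := by
    rintro ⟨x, hx⟩
    have hx' := hx
    rw [hXdef] at hx'
    obtain ⟨y, hy, hyx⟩ := hx'
    exact ⟨⟨y, hy⟩, Subtype.ext hyx⟩
  have hF := (h.sub hBH).map f hf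
  obtain ⟨p, hC, hBp⟩ := hind X _ _ (by rw [← hH]; exact Nat.card_le_card_of_surjective f hf) hF hX
  obtain ⟨F, i1, i2, hcF, -, T, hT, -, ⟨e⟩⟩ := hC.ex
  have hodd : Odd p := hC.prime.odd_of_ne_two (by have := hC.three; omega)
  have hcT : Nat.card T * 2 = p * (p ^ 2 - 1) := by
    rw [Nat.card_congr e.toEquiv,
      Cfsg.Agent.ClassicalGeometry.PSL2Basic.card_PSL2_odd (F := F) (by rw [hcF]; exact hodd), hcF]
  have hidx : T.index = 2 := by
    have h1 := T.card_mul_index
    rw [hC.card, ← hcT] at h1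
    exact Nat.eq_of_mul_eq_mul_left Nat.card_pos h1
  have hTs : IsSimpleGroup T := by
    have h1 : IsSimpleGroup (Matrix.ProjectiveSpecialLinearGroup (Fin 2) F) :=
      TwoFusion.SLTwoFacts.isSimpleGroup_psl (by rw [hcF]; exact hC.three)
    exact e.isSimpleGroup
  have hιT : ι.range ≤ T := by
    have hcomm : ∀ x y : X ⧸ T, x * y = y * x := by
      have h2 : Fact (Nat.Prime 2) := ⟨Nat.prime_two⟩
      have h1 : IsCyclic (X ⧸ T) := isCyclic_of_prime_card (p := 2) hidx
      exact (IsCyclic.commGroup (α := X ⧸ T)).mul_comm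
    have h2 : commutator N ≤ ((QuotientGroup.mk' T).comp ι).ker := by
      rw [commutator_def, commutator_le]
      intro a _ b _
      rw [MonoidHom.mem_ker, map_commutatorElement, commutatorElement_eq_one_iff_mul_comm]
      exact hcomm _ _
    rintro _ ⟨n, rfl⟩
    have h3 : n ∈ ((QuotientGroup.mk' T).comp ι).ker := h2 (by rw [hperf]; exact mem_top n)
    exact (QuotientGroup.eq_one_iff _).1 h3
  have hιn : ι.range.Normal := ⟨by
    rintro _ ⟨n, rfl⟩ g
    exact ⟨(g : MulAut N) n, Subtype.ext (conj_apply_eq (g : MulAut N) n).symm⟩⟩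
  have hιT' : ι.range = T := by
    have h1 : (ι.range.subgroupOf T).Normal := inferInstance
    rcases h1.eq_bot_or_eq_top with h2 | h2
    · exfalso
      rw [subgroupOf_eq_bot, disjoint_iff, inf_eq_left.2 hιT] at h2
      obtain ⟨n, hn⟩ := exists_ne (1 : N)
      apply hn
      apply hι
      have h3 : ι n ∈ ι.range := ⟨n, rfl⟩
      rw [h2, mem_bot] at h3
      rw [h3, map_one]
    · exact le_antisymm hιT (subgroupOf_eq_top.1 h2)
  have eN : N ≃* Matrix.ProjectiveSpecialLinearGroup (Fin 2) F :=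
    ((MonoidHom.ofInjective hι).trans (MulEquiv.subgroupCongr hιT')).trans e
  let R : Cfsg.Agent.GH.L2Aut.Rep F N :=
    Cfsg.Agent.GH.L2Aut.Rep.ofEquiv
      (Cfsg.Agent.GH.L2Aut.two_ne_zero_of_odd (by rw [hcF]; exact hodd)) eN
  have hFp : (Fintype.card F).Prime := by rw [hcF]; exact hC.prime
  have hcA := Cfsg.Agent.H397.ZAut.card_aut hFp R
  rw [hcF] at hcA
  have htop : X = ⊤ := by
    apply Subgroup.eq_top_of_card_eq
    rw [hC.card, hcA]
  refine ⟨p, hC.prime, hC.three, ?_, hcA, ?_, ?_⟩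
  · rw [← hφ, ← hH, ← hXdef, htop]
  · rw [Nat.card_congr (eN.trans e.symm).toEquiv, hcT]
  · have h1 : B.map φ = ((B.subgroupOf H).map f).map X.subtype := by
      rw [map_map]
      have h2 : X.subtype.comp f = φ.comp H.subtype := rfl
      rw [h2, ← map_map, subgroupOf_map_subtype, inf_of_le_left hBH]
    rw [← hBp, ← hφ, h1]
    exact (Nat.card_congr (equivMapOfInjective _ _ X.subtype_injective).toEquiv).symm

theorem conjNormal_coe {Y : Type u} [Group Y] {N : Subgroup Y} [N.Normal] (n : N) :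
    (MulAut.conjNormal : Y →* MulAut N) (n : Y) = MulAut.conj n := by
  ext x
  simp [MulAut.conjNormal_apply, MulAut.conj_apply]

theorem mem_ker_conjNormal {Y : Type u} [Group Y] {N : Subgroup Y} [N.Normal] {g : Y} :
    g ∈ (MulAut.conjNormal : Y →* MulAut N).ker ↔ g ∈ centralizer (N : Set Y) := by
  rw [MonoidHom.mem_ker, mem_centralizer_iff]
  constructor
  · intro h t ht
    have h1 := congrArg (fun φ : MulAut N => ((φ ⟨t, ht⟩ : N) : Y)) h
    simp only [MulAut.conjNormal_apply, MulAut.one_apply] at h1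
    rw [mul_inv_eq_iff_eq_mul] at h1
    exact h1.symm
  · intro h
    ext t
    rw [MulAut.conjNormal_apply, MulAut.one_apply, mul_inv_eq_iff_eq_mul]
    exact (h t t.2).symm

theorem Loc.surjective {Y : Type u} [Group Y] {B N : Subgroup Y} [N.Normal] {p : ℕ} (h : Loc B N p) :
    Function.Surjective (MulAut.conjNormal : Y →* MulAut N) := by
  intro x
  have h1 : x ∈ (B ⊔ N).map (MulAut.conjNormal : Y →* MulAut N) := by rw [h.top]; exact mem_top x
  obtain ⟨y, -, hy⟩ := h1
  exact ⟨y, hy⟩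

theorem Loc.cardA {Y : Type u} [Group Y] [Finite Y] {A B N : Subgroup Y} [hN : N.Normal] {p : ℕ}
    (h : Loc B N p) (hF : Fac Y A B) (hr : NR Y) :
    Nat.card (A.map (MulAut.conjNormal : Y →* MulAut N)) = p + 1 := by
  have hrN := hr.sub hN
  have hrX : NR (MulAut N) := fun S hS hSs => hrN.aut S hSs fun n s hs => hS.conj_mem s hs _
  have h1 := (hF.map _ h.surjective).card hrX
  have h3 := h.three
  rw [h.cardB, h.cardAut] at h1
  have h2 : p * (p ^ 2 - 1) = (p + 1) * (p * (p - 1)) := by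
    obtain ⟨k, rfl⟩ : ∃ k, p = k + 1 := ⟨p - 1, by omega⟩
    rw [Nat.add_sub_cancel]
    have h4 : (k + 1) ^ 2 - 1 = k * (k + 2) := by
      have : (k + 1) ^ 2 = k * (k + 2) + 1 := by ring
      omega
    rw [h4]; ring
  rw [h2] at h1
  refine Nat.eq_of_mul_eq_mul_right ?_ h1
  exact Nat.mul_pos (by omega) (by omega)

theorem step3 {Y : Type u} [Group Y] [Finite Y] {A B : Subgroup Y} (h : Fac Y A B) (hr : NR Y)
    {N₁ N₂ : Subgroup Y} [hN₁ : N₁.Normal] [hN₂ : N₂.Normal] {p₁ p₂ : ℕ} (h₁ : Loc B N₁ p₁) (h₂ : Loc B N₂ p₂)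
    (hc : N₂ ≤ centralizer (N₁ : Set Y)) : False := by
  have hA := h.cyc
  have hB := h.zg
  obtain ⟨φ₁, hφ₁⟩ : ∃ φ : Y →* MulAut N₁, φ = MulAut.conjNormal := ⟨_, rfl⟩
  obtain ⟨φ₂, hφ₂⟩ : ∃ φ : Y →* MulAut N₂, φ = MulAut.conjNormal := ⟨_, rfl⟩
  obtain ⟨ψ, hψ⟩ : ∃ ψ : Y →* MulAut N₁ × MulAut N₂, ψ = φ₁.prod φ₂ := ⟨_, rfl⟩
  have h3 := h.card_range_le ψ
  have hs : Function.Surjective φ₁ := by rw [hφ₁]; exact h₁.surjective
  have hge : Nat.card (MulAut N₁) * Nat.card N₂ ≤ Nat.card ψ.range := by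
    rw [← Nat.card_prod]
    refine Nat.card_le_card_of_injective
      (fun x : MulAut N₁ × N₂ => (⟨ψ (Function.surjInv hs x.1 * (x.2 : Y)), _, rfl⟩ : ψ.range)) ?_
    rintro ⟨x, n⟩ ⟨x', n'⟩ hxy
    have h4 : ψ (Function.surjInv hs x * (n : Y)) = ψ (Function.surjInv hs x' * (n' : Y)) :=
      congrArg Subtype.val hxy
    have hk : ∀ n : N₂, φ₁ (n : Y) = 1 := fun n => by
      have h5 : (n : Y) ∈ (MulAut.conjNormal : Y →* MulAut N₁).ker := mem_ker_conjNormal.2 (hc n.2)
      rw [hφ₁]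
      exact h5
    have h5 : x = x' := by
      have h6 := congrArg Prod.fst h4
      rw [hψ] at h6
      simp only [MonoidHom.prod_apply, map_mul, hk, Function.surjInv_eq] at h6
      exact h6
    rw [h5, map_mul, map_mul, mul_right_inj] at h4
    have h6 := congrArg Prod.snd h4
    rw [hψ] at h6
    simp only [MonoidHom.prod_apply] at h6
    rw [hφ₂, conjNormal_coe, conjNormal_coe] at h6
    rw [h5, (hr.sub hN₂).conj_injective h6]
  have hle : ∀ C : Subgroup Y, IsZGroup C → 2 ∣ Nat.card (C.map φ₁) → 2 ∣ Nat.card (C.map φ₂) →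
      Nat.card (C.map ψ) * 2 ≤ Nat.card (C.map φ₁) * Nat.card (C.map φ₂) := by
    intro C hC hd1 hd2
    have hz : IsZGroup (C.map ψ) := IsZGroup.of_surjective (ψ.subgroupMap_surjective C)
    refine two_card_le hz ?_ hd1 hd2
    rintro _ ⟨c, hc, rfl⟩
    rw [hψ]
    exact ⟨mem_map_of_mem φ₁ hc, mem_map_of_mem φ₂ hc⟩
  have a1 := h₁.cardA h hr
  have a2 := h₂.cardA h hr
  have b1 := h₁.cardB
  have b2 := h₂.cardB
  rw [← hφ₁] at a1 b1
  rw [← hφ₂] at a2 b2
  have o1 : Odd p₁ := h₁.prime.odd_of_ne_two (by have := h₁.three; omega)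
  have o2 : Odd p₂ := h₂.prime.odd_of_ne_two (by have := h₂.three; omega)
  have hA' := hle A inferInstance (by rw [a1]; exact (o1.add_one).two_dvd)
    (by rw [a2]; exact (o2.add_one).two_dvd)
  have hB' := hle B hB
    (by rw [b1]; exact Dvd.dvd.mul_left (o1.tsub_odd odd_one).two_dvd _)
    (by rw [b2]; exact Dvd.dvd.mul_left (o2.tsub_odd odd_one).two_dvd _)
  have hrX₁ : NR (MulAut N₁) := fun S hS hSs => (hr.sub hN₁).aut S hSs fun n s hs => hS.conj_mem s hs _
  have hrX₂ : NR (MulAut N₂) := fun S hS hSs => (hr.sub hN₂).aut S hSs fun n s hs => hS.conj_mem s hs _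
  have c1 := (h.map _ h₁.surjective).card hrX₁
  have c2 := (h.map _ h₂.surjective).card hrX₂
  rw [← hφ₁] at c1
  rw [← hφ₂] at c2
  have c3 : Nat.card N₂ * 2 = Nat.card (MulAut N₂) := by rw [h₂.cardN, h₂.cardAut]
  have hpos : 0 < Nat.card ψ.range := Nat.card_pos
  have h7 : (Nat.card (A.map ψ) * 2) * (Nat.card (B.map ψ) * 2) ≤
      (Nat.card (A.map φ₁) * Nat.card (A.map φ₂)) * (Nat.card (B.map φ₁) * Nat.card (B.map φ₂)) :=
    Nat.mul_le_mul hA' hB'
  have h8 : (Nat.card (A.map φ₁) * Nat.card (A.map φ₂)) * (Nat.card (B.map φ₁) * Nat.card (B.map φ₂)) =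
      Nat.card (MulAut N₁) * Nat.card N₂ * 2 := by
    rw [← c1, mul_assoc _ (Nat.card N₂) 2, c3, ← c2]; ring
  rw [h8] at h7
  nlinarith [h7, hge, h3, hpos]

theorem exists_minimal {Y : Type*} [Group Y] [Finite Y] {C : Subgroup Y} (hC : C.Normal) (hC1 : C ≠ ⊥) :
    ∃ N : Subgroup Y, N.Normal ∧ N ≠ ⊥ ∧ N ≤ C ∧
      ∀ K : Subgroup Y, K.Normal → K ≤ N → K = ⊥ ∨ K = N := by
  obtain ⟨N, hN⟩ := (Set.toFinite {N : Subgroup Y | N.Normal ∧ N ≠ ⊥ ∧ N ≤ C}).exists_minimal
    ⟨C, hC, hC1, le_rfl⟩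
  obtain ⟨⟨h1, h2, h3⟩, h4⟩ := hN
  refine ⟨N, h1, h2, h3, ?_⟩
  intro K hK hKN
  by_cases hK1 : K = ⊥
  · exact Or.inl hK1
  · exact Or.inr (le_antisymm hKN (h4 ⟨hK, hK1, hKN.trans h3⟩ hKN))

/-- **Products of a cyclic group and a Z-group without solvable normal subgroups.** -/
theorem main_ind (n : ℕ) : ∀ (Y : Type u) [Group Y] [Finite Y] [Nontrivial Y] (A B : Subgroup Y),
    Nat.card Y ≤ n → Fac Y A B → NR Y → ∃ p, Concl Y p ∧ Nat.card B = p * (p - 1) := by
  induction n with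
  | zero =>
    intro Y _ _ _ A B hc _ _
    have : 0 < Nat.card Y := Nat.card_pos
    omega
  | succ n ih =>
    intro Y _ _ _ A B hc h hr
    by_cases hex : ∃ N : Subgroup Y, N.Normal ∧ B ⊔ N = ⊤ ∧
        ∀ K : Subgroup Y, K.Normal → K ≤ N → K = ⊥ ∨ K = N
    · obtain ⟨N, hN, htop, hmin⟩ := hex
      exact step1 h hr hN hmin htop
    exfalso
    have hcard : ∀ N : Subgroup Y, N.Normal → (∀ K : Subgroup Y, K.Normal → K ≤ N → K = ⊥ ∨ K = N) →
        Nat.card ↥(B ⊔ N) < Nat.card Y := by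
      intro N hN hmin
      have h1 : B ⊔ N ≠ ⊤ := fun h' => hex ⟨N, hN, h', hmin⟩
      refine lt_of_le_of_ne (Subgroup.card_le_card_group _) ?_
      intro h2
      exact h1 (Subgroup.eq_top_of_card_eq _ h2)
    have hloc : ∀ (N : Subgroup Y) [N.Normal], N ≠ ⊥ →
        (∀ K : Subgroup Y, K.Normal → K ≤ N → K = ⊥ ∨ K = N) → ∃ p, Loc B N p := by
      intro N hN hN1 hmin
      refine step2 h hr hN1 hmin ?_
      intro X _ _ _ A' B' hX hF hrX
      have h1 := hcard N hN hmin
      exact ih X A' B' (by omega) hF hrX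
    obtain ⟨N₁, hN₁, hne₁, -, hmin₁⟩ := exists_minimal (C := (⊤ : Subgroup Y)) inferInstance top_ne_bot
    obtain ⟨p₁, hl₁⟩ := hloc N₁ hne₁ hmin₁
    by_cases hC : centralizer (N₁ : Set Y) = ⊥
    · have hinj : Function.Injective (MulAut.conjNormal : Y →* MulAut N₁) := by
        rw [injective_iff_map_eq_one]
        intro g hg
        have h6 := mem_ker_conjNormal.1 (MonoidHom.mem_ker.2 hg)
        rw [hC] at h6
        exact mem_bot.1 h6
      have h1 : Nat.card Y ≤ Nat.card (MulAut N₁) := Nat.card_le_card_of_injective _ hinj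
      have h2 : Nat.card (MulAut N₁) ≤ Nat.card ↥(B ⊔ N₁) := by
        rw [← Nat.card_congr (Subgroup.topEquiv (G := MulAut N₁)).toEquiv, ← hl₁.top]
        exact Nat.card_le_card_of_surjective _
          ((MulAut.conjNormal : Y →* MulAut N₁).subgroupMap_surjective (B ⊔ N₁))
      have h3 := hcard N₁ hN₁ hmin₁
      omega
    · obtain ⟨N₂, hN₂, hne₂, hle₂, hmin₂⟩ := exists_minimal (C := centralizer (N₁ : Set Y)) inferInstance hC
      obtain ⟨p₂, hl₂⟩ := hloc N₂ hne₂ hmin₂
      exact step3 h hr hl₁ hl₂ hle₂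

end Cfsg.Agent.H397.ZRed
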